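import Cfsg.Agent.H91.AHSpec

/-! AH tower, job `JobK10`. -/

set_option autoImplicit false
set_option linter.all false

namespace H21.AHK

open H33.Solv Subgroup MulAction H91.AH

theorem n3 : (3 : ZMod 7) ≠ 0 := by decide

theorem n2 : (2 : ZMod 5) ≠ 0 := by decide

theorem n4 : (2 * 2 - 1 : ZMod 5) ≠ 0 := by decide

variable {H V : Type} [Group H] [Finite H] [AddCommGroup V] [Finite V] [DistribMulAction H V]

theorem seven [Fact (Nat.Prime 7)] [Module (ZMod 7) V] (h : RV 7 H V) : Nat.card V ≠ 7 := by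
  intro hc
  haveI := h.nt
  obtain ⟨v, hv⟩ := exists_ne (0 : V)
  obtain ⟨g, e, -⟩ := h.ep (one_smul H v) (a := 3) n3
  obtain ⟨t, ht⟩ := isConj_iff.1 (h.ratH.real g)
  obtain ⟨b, hb⟩ := mem_multiples_of_prime_card hc (g' := t • v) hv
  have hb' : t • v = (b : ZMod 7) • v := by rw [Nat.cast_smul_eq_nsmul]; exact hb.symm
  have e1 : g • t • g • v = t • v := by
    rw [← mul_smul, ← mul_smul, show g * t * g = g * (t * g * t⁻¹) * t by group, ht]; simp
  rw [e, smul_sc, hb', smul_sc, smul_sc, e, smul_smul, smul_smul, ← sub_eq_zero, ← sub_smul,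
    show (3 * b * 3 - b : ZMod 7) = b by
      rw [show (3 * b * 3 - b : ZMod 7) = b + 7 * b by ring, show (7 : ZMod 7) = 0 from rfl]; simp,
    ← hb', smul_eq_zero_iff_eq] at e1
  exact hv e1

theorem cov [Fact (Nat.Prime 5)] [Module (ZMod 5) V] (h : RV 5 H V) :
    Nat.card V ≤ Nat.card H * Nat.sqrt (Nat.card V) := by
  classical
  haveI := Fintype.ofFinite H
  haveI := Fintype.ofFinite V
  have k : ∀ g : H, (Finset.univ.filter fun w : V => g • w = (2 : ZMod 5) • w).card ≤
      Nat.sqrt (Nat.card V) := fun g => by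
    obtain ⟨t, ht⟩ := isConj_iff.1 (h.ratH.real g)
    rw [Nat.le_sqrt, ← Finset.card_product, Nat.card_eq_fintype_card, ← Finset.card_univ]
    refine Finset.card_le_card_of_injOn (fun x => x.1 + t • x.2) (fun _ _ => Finset.mem_coe.2 (Finset.mem_univ _)) ?_
    rintro ⟨a, b⟩ h1 ⟨a', b'⟩ h2 e
    simp only [Finset.coe_product, Set.mem_prod, Finset.coe_filter, Finset.mem_univ, true_and,
      Set.mem_setOf_eq] at h1 h2 e
    have e1 : a - a' = t • (b' - b) := by rw [smul_sub, sub_eq_sub_iff_add_eq_add, e, add_comm]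
    have e2 : g • (a - a') = (2 : ZMod 5) • (a - a') := by rw [smul_sub, h1.1, h2.1, smul_sub]
    have e3 : g⁻¹ • (a - a') = (2 : ZMod 5) • (a - a') := by
      rw [e1, ← ht, ← mul_smul, inv_mul_cancel_right, mul_smul, smul_sub g, h1.2, h2.2, ← smul_sub,
        smul_sc]
    have e4 : a - a' = 0 := by
      have : ((2 * 2 - 1 : ZMod 5)) • (a - a') = 0 := by
        have e5 := inv_smul_smul g (a - a')
        rw [e2, smul_sc, e3] at e5
        rw [sub_smul, mul_smul, e5, one_smul, sub_self]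
      exact (smul_eq_zero.1 this).resolve_left n4
    rw [e4, eq_comm, smul_eq_zero_iff_eq, sub_eq_zero] at e1
    rw [sub_eq_zero.1 e4, e1]
  have c : (Finset.univ : Finset V) ⊆ Finset.univ.biUnion fun g : H =>
      Finset.univ.filter fun w : V => g • w = (2 : ZMod 5) • w := fun v _ => by
    obtain ⟨g, e, -⟩ := h.ep (one_smul H v) (a := 2) n2
    simp only [Finset.mem_biUnion, Finset.mem_filter, Finset.mem_univ, true_and]
    exact ⟨g, e⟩
  have := (Finset.card_le_card c).trans (Finset.card_biUnion_le_card_mul _ _ _ fun g _ => k g)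
  rwa [Finset.card_univ, Finset.card_univ, ← Nat.card_eq_fintype_card, ← Nat.card_eq_fintype_card]
    at this

theorem jobK10 : JobK10 := by
  intro hV5 p _ H V _ _ _ _ _ _ h
  refine ⟨fun e => by subst e; exact seven h, fun e hc x v hv hx => ?_⟩
  subst e
  by_contra hl
  rw [not_lt, lk] at hl
  have hm : x ∈ centralizer ({x} : Set H) ⊓ stabilizer H v := ⟨mem_cent.2 (Commute.refl x), hv⟩
  have hp : 0 < Nat.card (centralizer ({x} : Set H) ⊓ stabilizer H v : Subgroup H) := Nat.card_pos
  by_cases x1 : x = 1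
  · have : fix V x = ⊤ := eq_top_iff.2 fun w _ => mem_fix.2 (by rw [x1, one_smul])
    rw [this, AddSubgroup.card_top] at hl
    nlinarith
  have o : orderOf x = 2 := orderOf_eq_prime (by rw [pow_two, hx]) x1
  have h2 := Nat.le_of_dvd hp (o ▸ Subgroup.orderOf_dvd_natCard _ hm)
  have h5 := hV5 5 H V h rfl x (.inr (o ▸ Nat.prime_two))
  obtain ⟨n, hn⟩ := card_pow (p := 5) (fix V x)
  have h1 : fix V x = ⊥ := by
    rw [← AddSubgroup.card_eq_one, hn]
    rw [hn] at hl h5
    rcases n with _ | _ | n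
    · rfl
    · exact absurd rfl h5
    · have : 0 < 5 ^ n := by positivity
      rw [pow_succ, pow_succ] at hl
      nlinarith
  have z : ∀ w : V, x • w = w → w = 0 := fun w hw => AddSubgroup.mem_bot.1 (h1 ▸ mem_fix.2 hw)
  have neg : ∀ w : V, x • w = -w := fun w => eq_neg_of_add_eq_zero_left (z _ (by
    rw [smul_add, ← mul_smul, hx, one_smul, add_comm]))
  have top : centralizer ({x} : Set H) ⊓ stabilizer H v = ⊤ := eq_top_iff.2 fun g _ =>
    ⟨mem_cent.2 (by
      have := h.faith (g * x * g⁻¹ * x⁻¹) fun w => by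
        rw [mul_smul, mul_smul, mul_smul, neg, smul_neg, smul_inv_smul, ← neg, smul_inv_smul]
      exact mul_inv_eq_iff_eq_mul.1 (mul_inv_eq_one.1 this)), by
      rw [z v hv]; exact smul_zero g⟩
  rw [top, h1, AddSubgroup.card_bot, card_top] at hl
  have := cov h
  have := Nat.sqrt_le (Nat.card V)
  nlinarith

end H21.AHK
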