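/- Tower E82 (S5915), slot Irr: the adjoint module of `E₈(2)` is irreducible. -/
import Cfsg.Agent.H40.E82Spec
import Cfsg.Agent.H62.E8Form

set_option autoImplicit false
set_option linter.unusedSectionVars false

namespace H21.E82Irr

open Cfsg.Lie H63 H64 H65 H46 H14.E8 Matrix Module H40.E8F H56.SL2M H62.E8Form

section gen
variable {D : ChevalleyDatum} [RS D] [Tab D] {k : Type} [Field k]

/-- The height of a basis vector. -/
def wt : D.Idx → ℤ := Sum.elim (fun _ => 0) ht

/-- The support has heights at least `m`. -/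
def Sup (m : ℤ) (v : D.Idx → k) : Prop := ∀ j, v j ≠ 0 → m ≤ wt j

theorem raise {a : Rt D} (ha : Pos a) {m : ℤ} {v : D.Idx → k} (h : Sup m v) :
    Sup (m + 1) (X D k a 1 *ᵥ v - v) := by
  have hp := pos_iff_ht.1 ha
  have hn : v (.inr (negR a)) ≠ 0 → m ≤ - ht a := fun e => by
    have := h _ e
    change m ≤ ht (negR a) at this
    rwa [ht_negR] at this
  rintro (i | u) hj
  · rw [Pi.sub_apply, X_inl] at hj
    have := hn fun e => hj (by rw [e]; ring)
    show m + 1 ≤ 0
    omega
  · obtain ⟨c, hc, e⟩ := X_inr a (1 : k) v u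
    rw [Pi.sub_apply, e] at hj
    show m + 1 ≤ ht u
    by_contra hlt
    apply hj
    have h1 : ∑ s, c s * v (.inr s) = 0 := Finset.sum_eq_zero fun s _ => by
      by_contra hs
      obtain ⟨h2, h3⟩ := mul_ne_zero_iff.1 hs
      obtain ⟨-, j, hj1, e1⟩ := hc s h2
      have h4 := h _ h3
      have h5 : ht u = 1 * ht s + j * ht a := ht_of_eq (by rw [e1, one_smul])
      change m ≤ ht s at h4
      nlinarith
    rw [h1]
    split_ifs with hu
    · subst hu
      have h2 : rv v u = 0 := Finset.sum_eq_zero fun i _ => by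
        by_contra hs
        have := h _ (mul_ne_zero_iff.1 hs).2
        change m ≤ 0 at this
        omega
      have h3 : v (.inr (negR u)) = 0 := by
        by_contra hs
        have := hn hs
        omega
      rw [h2, h3]; ring
    · ring

theorem exists_fix {W : Submodule k (D.Idx → k)}
    (hW : ∀ r : Rt D, ∀ v ∈ W, X D k r 1 *ᵥ v ∈ W) {v : D.Idx → k} (hv : v ∈ W) (h0 : v ≠ 0) :
    ∃ v ∈ W, v ≠ 0 ∧ ∀ a : Rt D, Pos a → X D k a 1 *ᵥ v = v := by
  obtain ⟨B, hB⟩ := (Set.finite_range (wt : D.Idx → ℤ)).bddAbove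
  obtain ⟨b, hb⟩ := (Set.finite_range (wt : D.Idx → ℤ)).bddBelow
  have key : ∀ n : ℕ, ∀ v ∈ W, v ≠ 0 → Sup (B + 1 - n) v →
      ∃ v ∈ W, v ≠ 0 ∧ ∀ a : Rt D, Pos a → X D k a 1 *ᵥ v = v := by
    intro n
    induction n with
    | zero =>
      intro v _ h0 hs
      obtain ⟨j, hj⟩ := Function.ne_iff.1 h0
      have h1 := hs j hj
      have h2 := hB ⟨j, rfl⟩
      simp at h1
      omega
    | succ n ih =>
      intro v hv h0 hs
      by_cases h : ∀ a : Rt D, Pos a → X D k a 1 *ᵥ v = v
      · exact ⟨v, hv, h0, h⟩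
      push Not at h
      obtain ⟨a, ha, h⟩ := h
      refine ih _ (W.sub_mem (hW a v hv) hv) (sub_ne_zero.2 h) ?_
      have := raise ha hs
      rwa [show B + 1 - ((n + 1 : ℕ) : ℤ) + 1 = B + 1 - n by push_cast; ring] at this
  refine key (B + 1 - b).toNat v hv h0 fun j _ => ?_
  have := hb ⟨j, rfl⟩
  omega

theorem col {a y : Rt D} {t : ℕ} (h1 : y ≠ a) (h2 : y ≠ negR a) {M : ℤ}
    (e : D.chainEntry a y = [(t, M)]) :
    X D k a 1 *ᵥ bv D k y - bv D k y = (M : k) • bv D k t := by
  rw [X_bv_chain a.2 y.2 (Tab.keys a a.2) (fun h => h1 (Fin.ext h)) (fun h => h2 (Fin.ext h))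
    (chain_lt a.2 y.2), e]
  simp

theorem colh (hl : ∀ r : Rt D, len r = 1) (i : Fin D.rank) :
    X D k (simpleR i : Rt D) 1 *ᵥ bv D k (negR (simpleR i) : Rt D) - bv D k (negR (simpleR i) : Rt D) =
      bv D k (D.nroots + i) - bv D k (simpleR i : Rt D) := by
  have e : vec D k (coL D (simpleR i : Rt D)) = bv D k (D.nroots + i) := by
    rw [vec_coL_eq_sum, Finset.sum_eq_single i]
    · rw [co_eq hl, rt_simpleR]; simp
    · intro j _ hj
      rw [co_eq hl, rt_simpleR, Pi.single_eq_of_ne hj]; simp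
    · simp
  rw [negR_val, X_bv_neg (simpleR i).2 (neg_lt (simpleR i).2) (neg_ne (simpleR i).2), e]
  simp only [one_smul, one_pow]
  abel

/-- Every root but `θ` is joined to a later one by a positive root. -/
def Up (k : Type) [Field k] (θ : Rt D) : Prop := ∀ s : Rt D, s ≠ θ → ∃ a u : Rt D, Pos a ∧ s < u ∧
  u ≠ a ∧ u ≠ negR a ∧ (∃ M : ℤ, (M : k) ≠ 0 ∧ D.chainEntry (negR a : Rt D) u = [((s : ℕ), M)]) ∧
  ∃ M : ℤ, (M : k) ≠ 0 ∧ D.chainEntry a (negR u : Rt D) = [(((negR s : Rt D) : ℕ), M)]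

theorem irr (hl : ∀ r : Rt D, len r = 1) {c : Fin D.rank → Fin D.rank → ℤ}
    (hc : ∀ i j : Fin D.rank,
      ∑ l : Fin D.rank, D.cartan i (D.simple l) * c l j = if i = j then 1 else 0)
    {θ : Rt D} (hθ : Pos θ) (hup : Up k θ) (W : Submodule k (D.Idx → k))
    (hW : ∀ r : Rt D, ∀ v ∈ W, X D k r 1 *ᵥ v ∈ W) : W = ⊥ ∨ W = ⊤ := by
  rcases eq_or_ne W ⊥ with h | h
  · exact Or.inl h
  right
  obtain ⟨v, hv, h0⟩ := Submodule.exists_mem_ne_zero_of_ne_bot h
  obtain ⟨v, hv, h0, hf⟩ := exists_fix hW hv h0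
  have perp : ∀ a : Rt D, Pos a → ∀ w, β D k v (X D k a 1 *ᵥ w - w) = 0 := fun a ha w => by
    have := inv_X hl a (1 : k) v w
    rw [hf a ha] at this
    rw [map_sub, this, sub_self]
  have r0 : ∀ s : Rt D, s ≠ θ → v (.inr s) = 0 := fun s hs => by
    obtain ⟨a, u, ha, -, h1, h2, -, M, hM, e⟩ := hup s hs
    have := perp a ha (bv D k (negR u : Rt D))
    rw [col (fun e => h2 (negR_eq_iff.1 e)) (fun e => h1 (negR_inj.1 e)) e, map_smul, β_root,
      negR_negR, smul_eq_mul] at this
    exact (mul_eq_zero.1 this).resolve_left hM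
  have h1 : ∀ j : Fin D.rank, β D k v (bv D k (D.nroots + j)) = 0 := fun j => by
    have := perp _ (pos_simpleR j) (bv D k (negR (simpleR j) : Rt D))
    rw [colh hl, map_sub, β_root, r0 (negR (simpleR j)) fun e =>
      pos_negR.1 (by rw [e]; exact hθ) (pos_simpleR j)] at this
    rwa [sub_zero] at this
  have l0 : ∀ j : Fin D.rank, v (.inl j) = 0 := fun j => by
    have h2 : ∑ l : Fin D.rank, β D k v (bv D k (D.nroots + l)) * (c l j : k) = v (.inl j) := by
      simp only [β_h, Finset.sum_mul]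
      rw [Finset.sum_comm, Finset.sum_congr rfl (g := fun i => if i = j then v (.inl i) else 0)
        fun i _ => ?_]
      · simp
      · have := congrArg (fun z : ℤ => (z : k) * v (.inl i)) (hc i j)
        simp only [Int.cast_sum, Int.cast_mul, Finset.sum_mul, Int.cast_ite, Int.cast_one,
          Int.cast_zero, ite_mul, one_mul, zero_mul] at this
        rw [← this]
        exact Finset.sum_congr rfl fun l _ => mul_right_comm _ _ _
    simpa [h1] using h2.symm
  have ev : v = v (.inr θ) • bv D k θ := by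
    funext j
    rcases j with i | s
    · have := θ.2
      rw [l0, Pi.smul_apply, bv_inl, if_neg (by omega), smul_zero]
    · rw [Pi.smul_apply, bv_inr]
      by_cases e : s = θ
      · rw [e, if_pos rfl, smul_eq_mul, mul_one]
      · rw [r0 s e, if_neg fun e' => e (Fin.ext e'), smul_zero]
  have hθ0 : v (.inr θ) ≠ 0 := fun e => h0 (by rw [ev, e, zero_smul])
  have m0 : bv D k θ ∈ W := (W.smul_mem_iff hθ0).1 (ev ▸ hv)
  have m1 : ∀ n : ℕ, ∀ s : Rt D, D.nroots - s ≤ n → bv D k s ∈ W := by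
    intro n
    induction n with
    | zero => intro s hs; have := s.2; omega
    | succ n ih =>
      intro s hs
      by_cases e : s = θ
      · exact e ▸ m0
      obtain ⟨a, u, -, hlt, h2, h3, ⟨M, hM, e1⟩, -⟩ := hup s e
      have hu := ih u (by have : (s : ℕ) < u := hlt; omega)
      have := W.sub_mem (hW (negR a) _ hu) hu
      rw [col h3 (by rwa [negR_negR]) e1] at this
      exact (W.smul_mem_iff hM).1 this
  have m2 : ∀ s : Rt D, bv D k s ∈ W := fun s => m1 _ s le_rfl
  have m3 : ∀ i : Fin D.rank, bv D k (D.nroots + i) ∈ W := fun i => by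
    have := W.sub_mem (hW (simpleR i) _ (m2 (negR (simpleR i)))) (m2 (negR (simpleR i)))
    rw [colh hl] at this
    simpa using W.add_mem this (m2 (simpleR i))
  refine eq_top_iff.2 fun w _ => ?_
  rw [pi_eq_sum_univ' w]
  refine W.sum_mem fun j _ => W.smul_mem _ ?_
  rw [← bv_enc]
  rcases j with i | s
  exacts [m3 i, m2 s]

theorem adj_x [Comm D] {E : Type} [Field E] [Fintype E] (r : ℕ) (v : D.Idx → AlgebraicClosure E) :
    adj D E (xG D E r 1) v = X D (AlgebraicClosure E) r 1 *ᵥ v := by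
  show ((H67.toAlg D E (xG D E r 1)).1.1) *ᵥ v = _
  rw [mapG_xG, map_one]
  rfl
end gen

/-- The pairs `(a, u)`, written `256 a + u`. -/
def tab : List ℕ :=
  [30721, 30978, 31491, 32260, 33285, 34566, 36104, 34568, 33289, 32266, 31499, 30988, 30733,
   41492, 36111, 33296, 32273, 31506, 30995, 30740, 34585, 32278, 31511, 31000, 30745, 33309,
   31515, 31004, 30749, 32288, 31007, 30752, 31522, 30754, 31011, 36141, 31525, 31014, 30759,
   32298, 31017, 30762, 31532, 30764, 31021, 33331, 31023, 30768, 31538, 30770, 31027, 32310,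
   30773, 31030, 31543, 34625, 31033, 30778, 31548, 30780, 31037, 32320, 30783, 31040, 31553,
   33349, 30787, 31044, 31557, 32326, 36171, 30792, 31049, 31562, 32331, 33356, 34637, 41863,
   31055, 30800, 31570, 30802, 31059, 32342, 30805, 31062, 31575, 33371, 30809, 31066, 31579,
   32348, 34657, 30814, 31071, 31584, 32353, 33378, 36482, 30820, 31077, 31590, 32359, 33384,
   34946, 30826, 31083, 31596, 32365, 33662, 30831, 31088, 31601, 32635, 30835, 31092, 31865,
   30838, 31352, 31353, 31098, 30842, 31613, 31100, 30845, 32385, 31615, 31104, 30849, 33414,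
   32387, 31620, 31109, 30854, 34700, 33416, 32393, 31626, 31115, 30860, 36247, 33422, 32399,
   31632, 31121, 30866, 34711, 32404, 31637, 31126, 30871, 33435, 31641, 31130, 30875, 32414,
   31133, 30878, 31648, 30880, 31137, 41655, 34723, 33444, 32421, 31654, 31143, 30888, 36269,
   32426, 31659, 31148, 30893, 33457, 31663, 31152, 30897, 32436, 31155, 30900, 31670, 30902,
   31159, 34753, 31673, 31162, 30907, 32446, 31165, 30910, 31680, 30912, 31169, 33479, 31171,
   30916, 31686, 30918, 31175, 32458, 30921, 31178, 31691, 36309, 31181, 30926, 31696, 30928,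
   31185, 32468, 30931, 31188, 31701, 33497, 30935, 31192, 31705, 32474, 34783, 30940, 31197,
   31710, 32479, 33504, 36321, 41705, 30947, 31204, 31717, 32486, 33511, 34792, 36330, 34794,
   33515, 32492, 31725, 31214, 30959]

/-- The chain is one root with coefficient `± 1`. -/
def un (l : List (ℕ × ℤ)) (t : ℕ) : Bool := l == [(t, 1)] || l == [(t, -1)]

/-- The check for one root. -/
def ok (s a u : ℕ) : Bool := decide (a < 240) && decide (u < 240) && decide (s < u) &&
  (chevE8.coroot.getD a #[]).toList.all (fun c => decide (0 ≤ c)) && u != a && u != chevE8.neg a &&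
  un (chevE8.chainEntry (chevE8.neg a) u) s &&
  un (chevE8.chainEntry a (chevE8.neg u)) (chevE8.neg s)

theorem ok_all : ((List.range 239).all fun s => ok s (tab.getD s 0 / 256) (tab.getD s 0 % 256)) = true := by
  decide +kernel

theorem un_spec {k : Type} [Field k] {l : List (ℕ × ℤ)} {t : ℕ} (h : un l t = true) :
    ∃ M : ℤ, (M : k) ≠ 0 ∧ l = [(t, M)] := by
  simp only [un, Bool.or_eq_true, beq_iff_eq] at h
  rcases h with h | h
  · exact ⟨1, by simp, h⟩
  · exact ⟨-1, by simp, h⟩

attribute [local instance] H65.tabE8 H65.commE8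

/-- The highest root. -/
def th : Rt chevE8 := ⟨239, by decide⟩

theorem pos_th : Pos th := (isPosRoot_iff th).1 ⟨th.2, by decide +kernel⟩

theorem up (k : Type) [Field k] : Up k th := by
  intro s hs
  have h1 : (s : ℕ) < 239 := by
    have h2 : (s : ℕ) < 240 := s.2
    have h3 : (s : ℕ) ≠ 239 := fun e => hs (Fin.ext e)
    omega
  have h := List.all_eq_true.1 ok_all s (List.mem_range.2 h1)
  generalize tab.getD s 0 / 256 = a at h
  generalize tab.getD s 0 % 256 = u at h
  simp only [ok, Bool.and_eq_true, decide_eq_true_eq, bne_iff_ne, List.all_eq_true] at h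
  obtain ⟨⟨⟨⟨⟨⟨⟨ha, hu⟩, h2⟩, h3⟩, h4⟩, h5⟩, h6⟩, h7⟩ := h
  refine ⟨⟨a, ha⟩, ⟨u, hu⟩, (isPosRoot_iff _).1 ⟨ha, h3⟩, h2, fun e => h4 (congrArg Fin.val e),
    fun e => h5 ?_, ?_, ?_⟩
  · have := congrArg Fin.val e
    rwa [negR_val] at this
  · rw [negR_val]
    exact un_spec h6
  · rw [negR_val, negR_val]
    exact un_spec h7

theorem len1 (r : Rt chevE8) : len r = 1 := (len_E8 r).trans (len_E8' r)

theorem jobIrr : H40.E82.JobIrr := by
  intro W hW
  refine irr len1 cinv_spec pos_th (up _) W fun r v hv => ?_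
  have := hW (xG chevE8 (ZMod 2) r 1) v hv
  rwa [adj_x] at this

end H21.E82Irr
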