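import Cfsg.Agent.H21.L43K

/-! `L₄(3)`, case II: the embedding of `PP` extends to `SL₄(3)`. -/

set_option autoImplicit false
open Cfsg H56.L3 H47.L43 H57 Subgroup

namespace H21.L43

universe u

variable {G : Type*} [Group G] {φ : PP →* G}

/-- graph of `φ` -/
def Φ (φ : PP →* G) : PP →* G × SL4 := φ.prod PP.subtype

/-- the second coordinate determines the first -/
def Fn (K : Subgroup (G × SL4)) : Prop := ∀ a ∈ K, ∀ b ∈ K, a.2 = b.2 → a.1 = b.1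

theorem Φ_eq (p : PP) : Φ φ p = (φ p, p.1) := rfl

theorem fn_range : Fn (Φ φ).range := by
  rintro _ ⟨p, rfl⟩ _ ⟨q, rfl⟩ e
  exact congrArg φ (Subtype.ext e)

theorem Fn.conj {K : Subgroup (G × SL4)} (h : Fn K) (c : G × SL4) :
    Fn (K.comap (MulAut.conj c).toMonoidHom) := fun a ha b hb e => by
  simpa using h _ ha _ hb (by simpa using e)

theorem stA_of (x : Fin 4 → Fin 4 → F3 → G) (h : ∀ j l : Fin 4, ∃ K, Fn K ∧
    ∀ k m u, k ≠ m → (m = j ∨ m = l) → (x k m u, X k m u) ∈ K) : StA x where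
  add i j e a b := let ⟨_, f, m⟩ := h j j
    f _ (mul_mem (m i j a e (.inl rfl)) (m i j b e (.inl rfl))) _ (m i j _ e (.inl rfl))
      (stA_xA.add i j e a b)
  comm i j k l e1 e2 e3 e4 a b := let ⟨_, f, m⟩ := h j l
    f _ (mul_mem (m i j a e1 (.inl rfl)) (m k l b e2 (.inr rfl))) _
      (mul_mem (m k l b e2 (.inr rfl)) (m i j a e1 (.inl rfl))) (stA_xA.comm i j k l e1 e2 e3 e4 a b)
  tri i j k e1 e2 e3 a b := let ⟨_, f, m⟩ := h j k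
    f _ (mul_mem (mul_mem (mul_mem (m i j a e1 (.inl rfl)) (m j k b e2 (.inr rfl)))
      (inv_mem (m i j a e1 (.inl rfl)))) (inv_mem (m j k b e2 (.inr rfl)))) _
      (m i k _ e3 (.inr rfl)) (stA_xA.tri i j k e1 e2 e3 a b)

theorem J_le : JJ φ ≤ φ.range := by rintro _ ⟨b, c, d, e, rfl⟩; exact ⟨_, rfl⟩

theorem E_le : E2 φ ≤ φ.range := by rintro _ ⟨c, e, f, rfl⟩; exact ⟨_, rfl⟩

theorem conj_mem {H : Type*} [Group H] {K : Subgroup H} {c a : H} (hc : c ∈ Nr K) (ha : a ∈ K) :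
    c * a * c⁻¹ ∈ K := (mem_normalizer_iff.1 hc a).1 ha

theorem act {K : Subgroup (G × SL4)} (hK : K ≤ (Φ φ).range) {c : G} {C : SL4} (hc : (c, C) ∈ Nr K)
    {p : PP} (ha : Φ φ p ∈ K) (q : PP) (e : C * p = q * C) : c * φ p * c⁻¹ = φ q :=
  fn_range _ (hK (conj_mem hc ha)) _ ⟨q, rfl⟩ (mul_inv_eq_iff_eq_mul.2 e)

theorem cent {K : Subgroup (G × SL4)} (hK : K ≤ (Φ φ).range) {a b : G × SL4} (ha : a ∈ Nr K)
    (hb : b ∈ Nr K) {M : SL4} (hM : M ∈ center SL4) (e : a.2 = M * b.2) {k : G × SL4}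
    (hk : k ∈ K) : a.1 * b.1⁻¹ * k.1 = k.1 * (a.1 * b.1⁻¹) :=
  mul_inv_eq_iff_eq_mul.1 (fn_range _ (hK (conj_mem (mul_mem ha (inv_mem hb)) hk)) _ (hK hk) (by
    simp only [Prod.snd_mul, Prod.snd_inv, e, mul_inv_cancel_right, ← mem_center_iff.1 hM k.2]))

theorem pr {c : G} {C : SL4} {p q : PP} (h1 : c * φ p * c⁻¹ = φ q) (h2 : C * p = q * C) :
    (MulAut.conj (c, C)).toMonoidHom (Φ φ p) = Φ φ q := Prod.ext h1 (mul_inv_eq_iff_eq_mul.2 h2)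

theorem memE (hl : HL φ) {a b : G × SL4} (ha : a ∈ Nr (E2 (Φ φ))) (hb : b ∈ Nr (E2 (Φ φ)))
    (e : a.2 = b.2) : a.1 * b.1⁻¹ ∈ E2 φ :=
  have k := fun c e' f => cent E_le ha hb (one_mem _) (e.trans (one_mul _).symm) ⟨c, e', f, rfl⟩
  cE hl (k 1 0 0) (k 0 1 0) (k 0 0 1)

theorem eqJ (hl : HL φ) (fx : Fx φ) {a b : G × SL4} (ha : a ∈ Nr (JJ (Φ φ)))
    (hb : b ∈ Nr (JJ (Φ φ))) {M : SL4} (hM : M ∈ center SL4) (e : a.2 = M * b.2)
    (h1 : Commute a.1 (φ t3)) (h2 : Commute b.1 (φ t3)) : a.1 = b.1 := by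
  obtain ⟨x, c, d, y, h⟩ := fx.cJ (show a.1 * b.1⁻¹ ∈ _ by
    rintro _ ⟨x, c, d, y, rfl⟩
    exact (cent J_le ha hb hM e ⟨x, c, d, y, rfl⟩).symm)
  have h3 := (h1.mul_left h2.inv_left).eq
  rw [h, s, ← map_mul, ← map_mul] at h3
  have : ∀ b c d e, uP 0 b c d e 0 * t3 = t3 * uP 0 b c d e 0 → uP 0 b c d e 0 = 1 := by
    decide +kernel
  rwa [s, this _ _ _ _ (hl.inj h3), map_one, mul_inv_eq_one] at h

variable [Finite G]

theorem nr_left {K : Subgroup (G × SL4)} {e : G} (h : ∀ k ∈ K, e * k.1 = k.1 * e) :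
    (e, 1) ∈ Nr K := mem_normalizer_fintype fun k hk => by
  rwa [show (e, 1) * k * (e, 1)⁻¹ = k from Prod.ext (mul_inv_eq_iff_eq_mul.2 (h k hk)) (by simp)]

theorem nr_E {e : G} (he : e ∈ E2 φ) : (e, 1) ∈ Nr (E2 (Φ φ)) := nr_left (by
  obtain ⟨a, b, c, rfl⟩ := he
  rintro _ ⟨a', b', c', rfl⟩
  change _ * s φ .. = s φ .. * _
  rw [s_mul, s_mul]; congr 1 <;> ring)

theorem exists_l (hl : HL φ) (fx : Fx φ) (hc : IsConj (zz φ) (f0 φ)) :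
    ∃ l, (l, X 1 0 1) ∈ Nr (E2 (Φ φ)) := by
  obtain ⟨g, hg⟩ := isConj_iff.1 hc
  have gn := f0_not_range hl hg
  have zE : zz φ ∈ E1 φ := ⟨0, 0, 1, rfl⟩
  have z1 : zz φ ≠ 1 := fun e => one_ne_zero (s_inj hl.inj (e.trans (s_zero φ).symm)).2.2.1
  have key : ∀ k, k ∉ φ.range → k * zz φ * k⁻¹ ∈ QQ φ →
      zz φ ∈ cj k (QQ φ) ∧ QQ φ ⊓ cj k (QQ φ) = E2 φ := fun k hk hq => by
    have hE : k * zz φ * k⁻¹ ∉ E1 φ := fun e => hk (fx.nE _ zE z1 k e)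
    obtain ⟨h1, h2⟩ := hl.ab k hq fun e => hE (zpowers_le.2 zE e)
    exact ⟨h1, h2.resolve_left fun e => hE (e.le ⟨hq, _, ⟨0, 0, 1, 0, 0, rfl⟩, rfl⟩)⟩
  obtain ⟨⟨q, hq, e⟩, h2⟩ := key g gn (hg ▸ ⟨0, 0, 0, 1, 0, rfl⟩)
  obtain ⟨-, h3⟩ := key g⁻¹ (fun e => gn (φ.range.inv_mem_iff.1 e)) (by
    rw [← e]; simpa [mul_assoc] using hq)
  have h4 : ∀ a ∈ E2 φ, g⁻¹ * a * g ∈ E2 φ := fun a ha => by
    obtain ⟨ha1, q, hq, e⟩ := h2.ge ha
    refine h3.le ⟨?_, a, ha1, by simp⟩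
    rw [← e]; simpa [mul_assoc] using hq
  obtain ⟨a0, a1, a2, ha⟩ := h4 _ ⟨1, 0, 0, rfl⟩
  obtain ⟨b0, b1, b2, hb⟩ := h4 _ ⟨0, 0, 1, rfl⟩
  have hf : g⁻¹ * f0 φ * g = zz φ := by rw [← hg]; group
  have alt : ∀ a1 a2 b1 b2 : F3, (∃ α β, α * a1 + β * a2 = 1 ∧ α * b1 + β * b2 = 0) ∨
    ∃ j, a1 = j * b1 ∧ a2 = j * b2 := by decide +kernel
  obtain ⟨α, β, e1, e2⟩ | ⟨j, rfl, rfl⟩ := alt a1 a2 b1 b2
  · have m : ∀ α β c e f, uP α β 0 0 0 0 * uP 0 0 c 0 e f =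
      uP 0 0 c 0 e f * uP 0 0 (α * e + β * f) 0 0 0 * uP α β 0 0 0 0 := by decide +kernel
    have k : ∀ a c e f, g⁻¹ * a * g = s φ 0 0 c 0 e f → g * s φ α β 0 0 0 0 * g⁻¹ * a *
        (g * s φ α β 0 0 0 0 * g⁻¹)⁻¹ = a * (g * s φ 0 0 (α * e + β * f) 0 0 0 * g⁻¹) :=
      fun a c e f h => by
      have := congrArg φ (m α β c e f)
      simp only [map_mul, ← s.eq_1, ← h] at this
      calc _ = g * (s φ α β 0 0 0 0 * (g⁻¹ * a * g)) * (s φ α β 0 0 0 0)⁻¹ * g⁻¹ := by group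
        _ = _ := by rw [this]; group
    refine ⟨g * s φ α β 0 0 0 0 * g⁻¹, mem_Nr (E2_le ⟨1, 1, 0, pr ?_ (by decide +kernel)⟩
      ⟨0, 1, 0, pr ?_ (by decide +kernel)⟩ ⟨0, 0, 1, pr ?_ (by decide +kernel)⟩)⟩
    · refine (k _ _ _ _ ha).trans ?_
      rw [e1, hg, s_mul]; rfl
    · refine (k _ _ _ _ hf).trans ?_
      rw [mul_zero, mul_zero, add_zero, s_zero]; simp [s]
    · refine (k _ _ _ _ hb).trans ?_
      rw [e2, s_zero]; simp [s]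
  · have m1 : ∀ a j b0 b1 b2, uP 0 0 a 0 (j * b1) (j * b2) =
      uP 0 0 1 0 0 0 ^ (a - j * b0).val * uP 0 0 b0 0 b1 b2 ^ j.val := by decide +kernel
    have m3 : ∀ k j : F3, uP 0 0 1 0 0 0 ≠ uP 0 0 0 0 1 0 ^ k.val * uP 0 0 0 0 0 1 ^ j.val := by
      decide +kernel
    have := congrArg φ (m1 a0 j b0 b1 b2)
    simp only [map_mul, map_pow, ← s.eq_1, ← ha, ← hb] at this
    refine absurd (hl.inj ?_) (m3 (a0 - j * b0) j)
    simp only [map_mul, map_pow, ← s.eq_1]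
    rw [show s φ 0 0 1 0 0 0 ^ _ = (g⁻¹ * f0 φ * g) ^ _ by rw [hf], ← inv_inv g, inv_inv g⁻¹,
      conj_pow, conj_pow] at this
    simpa [mul_assoc] using congrArg (fun x => g * x * g⁻¹) this

/-- model Weyl elements -/
def N1 : SL4 := up (-1) 0 0 0 0 0 * X 1 0 1 * up (-1) 0 0 0 0 0
def N2 : PP := ⟨X 1 2 (-1) * X 2 1 1 * X 1 2 (-1), by decide +kernel⟩
def N3 : PP := ⟨X 2 3 (-1) * X 3 2 1 * X 2 3 (-1), by decide +kernel⟩

theorem t3_E : φ t3 ∈ Nr (E2 φ) :=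
  nrE fun c e f => ⟨-c, -e, f, by revert c e f; decide +kernel⟩

theorem exists_i (hl : HL φ) (fx : Fx φ) (hc : IsConj (zz φ) (f0 φ)) :
    ∃ i, (i, N1) ∈ Nr (E2 (Φ φ)) ∧ Commute i (φ t3) := by
  obtain ⟨l, h⟩ := exists_l hl fx hc
  have hU : Φ φ (uP (-1) 0 0 0 0 0) ∈ Nr (E2 (Φ φ)) :=
    nrE fun c e f => ⟨c - e, e, f, by revert c e f; decide +kernel⟩
  obtain ⟨i, h1⟩ : ∃ i, (i, N1) ∈ Nr (E2 (Φ φ)) := by
    have := mul_mem (mul_mem hU h) hU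
    rw [Φ_eq, Prod.mk_mul_mk, Prod.mk_mul_mk] at this
    exact ⟨_, this⟩
  have h2 := memE hl (mul_mem h1 t3_E) (mul_mem t3_E h1)
  simp only [Φ_eq, Prod.mk_mul_mk] at h2
  replace h2 := h2 (by decide +kernel)
  have h3 := mul_mem (nr_E h2) h1
  rw [Prod.mk_mul_mk, one_mul] at h3
  refine ⟨_, h3, ?_⟩
  have tt : φ t3 * φ t3 = 1 := by rw [← map_mul, show t3 * t3 = 1 by decide +kernel, map_one]
  obtain ⟨c, e, f, h4⟩ := h2
  have m : ∀ c e f, uP 0 0 c 0 e f * (uP 0 0 c 0 e f * uP 0 0 c 0 e f) = 1 := by decide +kernel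
  have h5 := congrArg φ (m c e f)
  rw [map_mul, map_mul, map_one, ← s.eq_1, ← h4] at h5
  have h6 : i * φ t3 * (φ t3 * i)⁻¹ * φ t3 * (i * φ t3 * (φ t3 * i)⁻¹) = φ t3 := by
    calc _ = i * (φ t3 * φ t3) * i⁻¹ * (φ t3)⁻¹ := by group
      _ = _ := by rw [tt, mul_one, mul_inv_cancel, one_mul, inv_eq_of_mul_eq_one_right tt]
  have h7 : i * φ t3 = i * φ t3 * (φ t3 * i)⁻¹ * φ t3 * i := by group
  generalize i * φ t3 * (φ t3 * i)⁻¹ = x at h5 h6 h7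
  rw [Commute, SemiconjBy, mul_assoc, h7]
  calc _ = x * (x * x) * x⁻¹ * φ t3 * i := by group
    _ = x⁻¹ * (x * φ t3 * x) * i := by rw [h5, h6, one_mul]
    _ = _ := by group

theorem exists_n (hl : HL φ) (fx : Fx φ) (hc : IsConj (zz φ) (f0 φ)) :
    ∃ n, (n, N1) ∈ Nr (E2 (Φ φ)) ∧ (n, N1) ∈ Nr (JJ (Φ φ)) ∧ Commute n (φ t3) := by
  obtain ⟨i, h1, h2⟩ := exists_i hl fx hc
  let θ := (MulAut.conj i).toMonoidHom.comp φ
  have hE : ∀ c e f, θ (uP 0 0 c 0 e f) = s φ 0 0 (-e) 0 c f := fun c e f =>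
    act E_le h1 ⟨c, e, f, rfl⟩ _ (by revert c e f; decide +kernel)
  have ht : θ t3 = φ t3 := mul_inv_eq_iff_eq_mul.2 h2
  have key : ∀ b d, ∃ c e, θ (uP 0 b 0 d 0 0) = s φ 0 (-d) c b e 0 := fun b d => by
    have m0 : ∀ b d c e, uP 0 b 0 d 0 0 * uP 0 0 c 0 e 0 = uP 0 0 c 0 e 0 * uP 0 b 0 d 0 0 := by
      decide +kernel
    have m1 : ∀ b d, uP 0 b 0 d 0 0 * t3 * uP 0 b 0 d 0 0 = t3 := by decide +kernel
    have m2 : ∀ b c d e f, uP 0 b c d e f * t3 * uP 0 b c d e f = t3 → f = 0 := by decide +kernel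
    have m3 : ∀ b d, uP 0 0 0 0 0 1 * uP 0 b 0 d 0 0 =
      uP 0 b 0 d 0 0 * uP 0 0 (-b) 0 (-d) 0 * uP 0 0 0 0 0 1 := by decide +kernel
    have a1 := congrArg θ (m0 b d 0 (-1))
    have a2 := congrArg θ (m0 b d 1 0)
    have a3 := congrArg θ (m1 b d)
    have a4 := congrArg θ (m3 b d)
    simp only [map_mul, hE, ht, neg_neg, neg_zero] at a1 a2 a3 a4
    obtain ⟨b', c, d', e, f, h⟩ := cV hl a1 a2
    rw [h] at a3 a4 ⊢
    obtain rfl := m2 b' c d' e f (hl.inj (by rw [map_mul, map_mul]; exact a3))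
    simp only [s_mul] at a4
    obtain ⟨-, -, a5, -, a6, -⟩ := s_inj hl.inj a4
    exact ⟨c, e, by congr 1 <;> [linear_combination -a5; linear_combination -a6]⟩
  have rk : ∀ b c d e p, IsConj (zz φ) (φ p) → θ p = s φ 0 b c d e 0 → b * e - c * d = 0 :=
    fun b c d e p h h' => by_contra fun e0 => fx.uz b c d e e0
      (h.trans (isConj_iff.2 ⟨i, h'⟩))
  have cn : ∀ g p q : PP, g * p = q * g → IsConj (φ p) (φ q) := fun g p q h =>
    φ.map_isConj (isConj_iff.2 ⟨g, mul_inv_eq_iff_eq_mul.2 h⟩)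
  obtain ⟨α, β, hy⟩ := key 1 0
  obtain ⟨α', β', hp⟩ := key 0 1
  have c1 : IsConj (zz φ) (φ (uP 0 0 0 1 0 0)) :=
    hc.trans (cn N3 _ _ (by decide +kernel)).symm
  have r1 := rk _ _ _ _ _ (cn N3 _ (uP 0 0 1 0 0 0) (by decide +kernel)).symm hy
  have r2 := rk _ _ _ _ _ c1 hp
  have r3 := rk (-1) (α + α') 1 (β + β') (uP 0 1 0 0 0 0 * uP 0 0 0 1 0 0)
    (c1.trans (cn (uP 1 0 0 0 0 0) _ _ (by decide +kernel)))
    (by rw [map_mul, hy, hp, s_mul]; congr 1 <;> ring)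
  obtain rfl : α = 0 := by linear_combination -r1
  obtain rfl : β' = 0 := by linear_combination -r2
  obtain rfl : α' = -β := by linear_combination -r3
  have h3 := mul_mem (nr_E (φ := φ) ⟨0, 0, β, rfl⟩) h1
  rw [Prod.mk_mul_mk, one_mul] at h3
  have k : ∀ p b c d e, θ p = s φ 0 b c d e 0 → s φ 0 0 0 0 0 β * i * φ p *
      (s φ 0 0 0 0 0 β * i)⁻¹ = s φ 0 b (c - β * b) d (e - β * d) 0 := fun p b c d e h => by
    calc _ = s φ 0 0 0 0 0 β * θ p * (s φ 0 0 0 0 0 β)⁻¹ := by simp [θ, mul_assoc]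
      _ = _ := by rw [h, s_inv, s_mul, s_mul]; congr 1 <;> ring
  refine ⟨_, h3, mem_Nr (JJ_le ⟨0, 0, 1, 0, pr ?_ (by decide +kernel)⟩
    ⟨0, 0, 0, 1, pr ?_ (by decide +kernel)⟩ ⟨-1, 0, 0, 0, pr ?_ (by decide +kernel)⟩
    ⟨0, -1, 0, 0, pr ?_ (by decide +kernel)⟩), Commute.mul_left ?_ h2⟩
  · exact (k _ _ _ _ _ hy).trans (by simp [s])
  · exact (k _ _ _ _ _ (hE ..)).trans (by simp [s])
  · exact (k _ _ _ _ _ hp).trans (by simp [s])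
  · exact (k _ _ _ _ _ (hE ..)).trans (by simp [s])
  · exact Commute.map (show uP 0 0 0 0 0 β * t3 = t3 * uP 0 0 0 0 0 β by
      clear * -; revert β; decide +kernel) φ

/-- `-1` -/
def M1 : SL4 := N1 * N1 * t3

theorem M1_val : M1.1 = -1 := by decide +kernel

theorem cen_of {g : SL4} (h : g.1 = -1) : g ∈ center SL4 :=
  mem_center_iff.2 fun a => Subtype.ext (by
    rw [Matrix.SpecialLinearGroup.coe_mul, Matrix.SpecialLinearGroup.coe_mul, h]; simp)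

theorem braid (hl : HL φ) (fx : Fx φ) {n : G} (hE : (n, N1) ∈ Nr (E2 (Φ φ)))
    (hJ : (n, N1) ∈ Nr (JJ (Φ φ))) (h3 : Commute n (φ t3)) :
    (n, N1) * Φ φ N2 * (n, N1) = Φ φ N2 * (n, N1) * Φ φ N2 := by
  have c : ∀ p : PP, p * t3 = t3 * p → Commute (φ p) (φ t3) := fun p h => Commute.map h φ
  have j2 : Φ φ t2 ∈ Nr (JJ (Φ φ)) :=
    nrJ fun b c d e => ⟨-b, c, d, -e, by revert b c d e; decide +kernel⟩
  have j3 : Φ φ (t2 * t3) ∈ Nr (JJ (Φ φ)) :=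
    nrJ fun b c d e => ⟨b, -c, -d, e, by revert b c d e; decide +kernel⟩
  have e2 : Φ φ N2 ∈ Nr (E2 (Φ φ)) :=
    nrE fun c e f => ⟨c, -f, e, by revert c e f; decide +kernel⟩
  have h2 := eqJ hl fx (mul_mem hJ j2) (mul_mem j3 hJ) (cen_of M1_val)
  simp only [Φ_eq, Prod.mk_mul_mk] at h2
  replace h2 := h2 (by decide +kernel) (h3.mul_left (c _ (by decide +kernel)))
    ((c _ (by decide +kernel)).mul_left h3)
  have h4 := memE hl (mul_mem (mul_mem hE e2) hE) (mul_mem (mul_mem e2 hE) e2)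
  simp only [Φ_eq, Prod.mk_mul_mk] at h4 ⊢
  obtain ⟨a, b, d, h4⟩ := h4 (by decide +kernel)
  refine Prod.ext ?_ (by change _ * _ * _ = N2.1 * N1 * N2.1; decide +kernel)
  have m : ∀ p q : PP, N2 * p = q * N2 → φ N2 * φ p = φ q * φ N2 := fun p q h => by
    rw [← map_mul, h, map_mul]
  have a1 := m t2 t2 (by decide +kernel)
  have a2 := m t3 (t2 * t3) (by decide +kernel)
  have a3 := m (t2 * t3) t3 (by decide +kernel)
  have a4 : n * φ (t2 * t3) = φ t2 * n := by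
    rw [map_mul, ← mul_assoc, h2, mul_assoc, h3.eq, ← mul_assoc, ← map_mul,
      show t2 * t3 * t3 = t2 by decide +kernel]
  have k : ∀ p q, SemiconjBy (n * φ N2 * n) p q → SemiconjBy (φ N2 * n * φ N2) p q →
      s φ 0 0 a 0 b d * q = q * s φ 0 0 a 0 b d := fun p q e1 e2 =>
    h4 ▸ (SemiconjBy.mul_left e1 e2.inv_symm_left).eq
  have b1 := k _ _ (.mul_left (.mul_left h3 a3) h2) (.mul_left (.mul_left a3 h2) a1)
  have b2 := k _ _ (.mul_left (.mul_left a4 a2) h3) (.mul_left (.mul_left a1 a4) a2)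
  have m1 : ∀ a b d, uP 0 0 a 0 b d * t3 = t3 * uP 0 0 a 0 b d →
    uP 0 0 a 0 b d * t2 = t2 * uP 0 0 a 0 b d → uP 0 0 a 0 b d = 1 := by decide +kernel
  rwa [s, m1 a b d (hl.inj (by rw [map_mul, map_mul]; exact b1))
    (hl.inj (by rw [map_mul, map_mul]; exact b2)), map_one, mul_inv_eq_one] at h4

theorem exists_x (hl : HL φ) (fx : Fx φ) (hc : IsConj (zz φ) (f0 φ)) :
    ∃ x : Fin 4 → Fin 4 → F3 → G, StA x ∧
      ∀ k l u, l ≠ 0 → (x k l u, X k l u) ∈ (Φ φ).range := by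
  obtain ⟨n, hE, hJ, h3⟩ := exists_n hl fx hc
  have br := braid hl fx hE hJ h3
  generalize hm : (n, N1) = m at br
  let f : SL4 → G := fun g => if h : g ∈ PP then φ ⟨g, h⟩ else 1
  have fΦ : ∀ p : PP, (f p, p.1) = Φ φ p := fun p => by simp only [f, dif_pos p.2, Φ_eq]
  have fm : ∀ k l u, l ≠ 0 → (f (X k l u), X k l u) ∈ (Φ φ).range := fun k l u h =>
    ⟨⟨_, X_mem k l u h⟩, (fΦ _).symm⟩
  have hA : ∀ k l u, k ≠ l → (l = 2 ∨ l = 3) →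
      m⁻¹ * (f (X k l u), X k l u) * m⁻¹⁻¹ ∈ (Φ φ).range := fun k l u h1 h2 => by
    have m1 : ∀ k l u, k ≠ l → (l = 2 ∨ l = 3) → X k l u =
      (uP 0 (X k l u 0 2) (X k l u 0 3) (X k l u 1 2) (X k l u 1 3) 0).1 ∨
        X k l u = (uP 0 0 0 0 0 u).1 ∨ (k = 3 ∧ l = 2) := by decide +kernel
    obtain e | e | ⟨rfl, rfl⟩ := m1 k l u h1 h2
    · rw [e, fΦ]; exact J_le (conj_mem (inv_mem (hm ▸ hJ)) ⟨_, _, _, _, rfl⟩)
    · rw [e, fΦ]; exact E_le (conj_mem (inv_mem (hm ▸ hE)) ⟨_, _, _, rfl⟩)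
    · let v : F3 → PP := fun u => ⟨X 3 2 u, X_mem _ _ _ (by decide)⟩
      have j : Φ φ (v u) ∈ Nr (JJ (Φ φ)) := nrJ fun b c d e =>
        ⟨b - u * c, c, d - u * e, e, by clear * -; revert u b c d e; decide +kernel⟩
      have c : Commute (φ (v u)) (φ t3) :=
        Commute.map (show v u * t3 = t3 * v u by clear * -; revert u; decide +kernel) φ
      have e2 : X 3 2 u * N1 = 1 * (N1 * X 3 2 u) := by clear * -; revert u; decide +kernel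
      have h4 := eqJ hl fx (mul_mem j hJ) (mul_mem hJ j) (one_mem _)
      simp only [Φ_eq, Prod.mk_mul_mk] at h4
      have e : Φ φ (v u) * m = m * Φ φ (v u) := by
        rw [← hm, Φ_eq, Prod.mk_mul_mk, Prod.mk_mul_mk, h4 e2 (c.mul_left h3) (h3.mul_left c), e2,
          one_mul]
      rw [fΦ (v u), inv_inv, mul_assoc, e, inv_mul_cancel_left]
      exact ⟨_, rfl⟩
  have hK : ∀ k l u, k ≠ l → (l = 1 ∨ l = 3) → m⁻¹ * ((Φ φ N2)⁻¹ * (f (X k l u), X k l u) *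
      Φ φ N2) * m⁻¹⁻¹ ∈ (Φ φ).range := fun k l u h1 h2 => by
    have m1 : ∀ k l u, k ≠ l → (l = 1 ∨ l = 3) → ∃ k' l' u', k' ≠ l' ∧ (l' = 2 ∨ l' = 3) ∧
      X k l u * N2 = N2 * X k' l' u' := by decide +kernel
    obtain ⟨k', l', u', a1, a2, e⟩ := m1 k l u h1 h2
    have e2 : ((Φ φ N2)⁻¹ * (f (X k l u), X k l u) * Φ φ N2).2 = X k' l' u' := by
      simp only [Φ_eq, Prod.snd_mul, Prod.snd_inv, mul_assoc, e, inv_mul_cancel_left]
    have e3 : (Φ φ N2)⁻¹ * (f (X k l u), X k l u) * Φ φ N2 = (f (X k' l' u'), X k' l' u') :=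
      Prod.ext (fn_range _ (mul_mem (mul_mem (inv_mem ⟨_, rfl⟩) (fm k l u (by omega))) ⟨_, rfl⟩) _
        (fm k' l' u' (by omega)) e2) e2
    exact e3 ▸ hA k' l' u' a1 a2
  let x : Fin 4 → Fin 4 → F3 → G := fun k l u =>
    if l = 0 then n * f (N1⁻¹ * X k l u * N1) * n⁻¹ else f (X k l u)
  have x1 : ∀ k l u, l ≠ 0 → x k l u = f (X k l u) := fun k l u h => if_neg h
  have x0 : ∀ k u, k ≠ 0 → ∃ k' u', k' ≠ 1 ∧
      (x k 0 u, X k 0 u) = m * (f (X k' 1 u'), X k' 1 u') * m⁻¹ := fun k u h => by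
    have m1 : ∀ k u, k ≠ 0 → ∃ k' u', k' ≠ 1 ∧ X k 0 u * N1 = N1 * X k' 1 u' := by decide +kernel
    obtain ⟨k', u', a1, e⟩ := m1 k u h
    refine ⟨k', u', a1, ?_⟩
    rw [← hm, Prod.inv_mk, Prod.mk_mul_mk, Prod.mk_mul_mk, ← e, mul_inv_cancel_right]
    simp only [x, if_true, mul_assoc N1⁻¹, e, inv_mul_cancel_left]
  refine ⟨x, stA_of x fun j l => ?_, fun k l u h => x1 k l u h ▸ fm k l u h⟩
  obtain h | h | h : (j ≠ 0 ∧ l ≠ 0) ∨ (j ≠ 1 ∧ l ≠ 1) ∨ (j ≠ 2 ∧ l ≠ 2) := by omega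
  · exact ⟨_, fn_range, fun k i u _ h2 => x1 k i u (by omega) ▸ fm k i u (by omega)⟩
  · refine ⟨_, (fn_range (φ := φ)).conj m⁻¹, fun k i u h1 h2 => ?_⟩
    change m⁻¹ * _ * m⁻¹⁻¹ ∈ (Φ φ).range
    by_cases e : i = 0
    · subst e
      obtain ⟨k', u', -, e⟩ := x0 k u h1
      rw [e, inv_inv, mul_assoc m, inv_mul_cancel_left, inv_mul_cancel_right]
      exact fm _ _ _ (by decide)
    · rw [x1 k i u e]; exact hA k i u h1 (by omega)
  · refine ⟨_, (fn_range (φ := φ)).conj (m⁻¹ * (Φ φ N2)⁻¹), fun k i u h1 h2 => ?_⟩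
    change m⁻¹ * (Φ φ N2)⁻¹ * _ * (m⁻¹ * (Φ φ N2)⁻¹)⁻¹ ∈ (Φ φ).range
    by_cases e : i = 0
    · subst e
      obtain ⟨k', u', a1, e⟩ := x0 k u h1
      have b2 : m⁻¹ * (Φ φ N2)⁻¹ * m = Φ φ N2 * m⁻¹ * (Φ φ N2)⁻¹ := by
        calc _ = Φ φ N2 * (Φ φ N2 * m * Φ φ N2)⁻¹ * m := by group
          _ = _ := by rw [← br]; group
      have n2 : Φ φ N2 ∈ (Φ φ).range := ⟨N2, rfl⟩
      have := mul_mem (mul_mem n2 (hK k' 1 u' a1 (.inl rfl))) (inv_mem n2)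
      rw [e]
      convert this using 1
      calc _ = m⁻¹ * (Φ φ N2)⁻¹ * m * (f (X k' 1 u'), X k' 1 u') * (m⁻¹ * (Φ φ N2)⁻¹ * m)⁻¹ := by
            group
        _ = _ := by rw [b2]; group
    · rw [x1 k i u e]
      convert hK k i u h1 (by omega) using 1
      group

theorem jobII : JobII.{u} := by
  intro _ G _ _ φ hl fx hc
  obtain ⟨x, h1, h2⟩ := exists_x hl fx hc
  obtain ⟨ψ, hψ⟩ := h1.exists_hom (by decide)
  have ext : ∀ p : PP, ψ p = φ p := fun p =>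
    fn_range _ (PP_le ((Φ φ).range.comap (ψ.prod (MonoidHom.id _))) (fun k l u a b => by
      rw [mem_comap, MonoidHom.prod_apply, hψ k l a]; exact h2 k l u b) p.2) _ ⟨p, rfl⟩ rfl
  have cen : ∀ g ∈ center SL4, g.1 = 1 ∨ g.1 = -1 := fun g hg => by
    obtain ⟨r, a1, a2⟩ := Matrix.SpecialLinearGroup.mem_center_iff.1 hg
    have : ∀ r : F3, r ^ Fintype.card (Fin 4) = 1 → Matrix.scalar (Fin 4) r = 1 ∨
      Matrix.scalar (Fin 4) r = -1 := by decide +kernel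
    exact a2 ▸ this r a1
  have sq : ∀ g : SL4, g.1 = 1 ∨ g.1 = -1 → g * g = 1 := fun g h => Subtype.ext (by
    rw [Matrix.SpecialLinearGroup.coe_mul]; rcases h with h | h <;> simp [h])
  refine ⟨ψ, ext, fun g => ⟨fun h => cen g ?_, fun h => ?_⟩⟩
  · have := psl_isSimpleGroup_of_three_le (ι := Fin 4) (F := F3) (by decide)
    obtain e | e := ((MonoidHom.normal_ker ψ).map _
      (QuotientGroup.mk'_surjective (center SL4))).eq_bot_or_eq_top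
    · exact (QuotientGroup.eq_one_iff g).1 (e.le ⟨g, h, rfl⟩)
    · obtain ⟨k, hk, e⟩ := e.ge (mem_top (QuotientGroup.mk (uP 1 0 0 0 0 0).1))
      have a1 := congrArg ψ (sq _ (cen _ (QuotientGroup.eq.1 e)))
      simp only [map_mul, map_inv, MonoidHom.mem_ker.1 hk, inv_one, one_mul, ext, map_one] at a1
      rw [← map_mul, ← φ.map_one] at a1
      exact absurd (hl.inj a1) (by decide +kernel)
  · rcases h with h | h
    · rw [show g = 1 from Subtype.ext h, map_one]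
    · obtain ⟨b, c, d, e, a1⟩ := fx.cJ (show ψ g ∈ _ by
        rintro _ ⟨b, c, d, e, rfl⟩
        rw [s, ← ext, ← map_mul, mem_center_iff.1 (cen_of h), map_mul])
      have a2 := congrArg ψ (sq g (.inr h))
      have m : ∀ b c d e, uP 0 b c d e 0 * uP 0 b c d e 0 = 1 → uP 0 b c d e 0 = 1 := by
        decide +kernel
      rw [map_mul, map_one, a1, s, ← map_mul, ← φ.map_one] at a2
      rw [a1, s, m b c d e (hl.inj a2), map_one]

end H21.L43
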