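import Cfsg.Agent.H47.L43Sp
import Cfsg.Agent.H57.StA

/-! `L₄(3)`: model lemmas for the parabolic subgroup `PP` (decidable membership, generation by
root elements, centralisers). -/

set_option autoImplicit false
open Cfsg H56.L3 H47.L43 H57 Subgroup

namespace H21.L43

theorem mem_PP {g : SL4} : g ∈ PP ↔ ∀ i, g.1 i 0 = if i = 0 then 1 else 0 := by
  change g.1.mulVec _ = _ ↔ _
  simp [funext_iff, Pi.single_apply]

instance decPP (g : SL4) : Decidable (g ∈ PP) := decidable_of_iff _ mem_PP.symm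

/-- root elements -/
abbrev X : Fin 4 → Fin 4 → F3 → SL4 := xA

theorem X_mem : ∀ k l u, l ≠ 0 → X k l u ∈ PP := by decide +kernel

theorem uP_inj {a b c d e f a' b' c' d' e' f' : F3} (h : uP a b c d e f = uP a' b' c' d' e' f') :
    a = a' ∧ b = b' ∧ c = c' ∧ d = d' ∧ e = e' ∧ f = f' :=
  have k := fun i j => congrArg (fun g : PP => g.1.1 i j) h
  ⟨k 0 1, k 0 2, k 0 3, k 1 2, k 1 3, k 2 3⟩

theorem cv (p : PP) (h1 : p * uP 0 0 1 0 0 0 = uP 0 0 1 0 0 0 * p)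
    (h2 : p * uP 0 0 0 0 1 0 = uP 0 0 0 0 1 0 * p) : ∃ b c d e f, p = uP 0 b c d e f := by
  have m := mem_PP.1 p.2
  have e1 : p.1.1 * !![1, 0, 0, 1; 0, 1, 0, 0; 0, 0, 1, 0; 0, 0, 0, 1] =
    !![1, 0, 0, 1; 0, 1, 0, 0; 0, 0, 1, 0; 0, 0, 0, 1] * p.1.1 := congrArg (fun g : PP => g.1.1) h1
  have e2 : p.1.1 * !![1, 0, 0, 0; 0, 1, 0, 1; 0, 0, 1, 0; 0, 0, 0, 1] =
    !![1, 0, 0, 0; 0, 1, 0, 1; 0, 0, 1, 0; 0, 0, 0, 1] * p.1.1 := congrArg (fun g : PP => g.1.1) h2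
  have h := p.1.2
  suffices ∃ b c d e f, p.1.1 = !![1, 0, b, c; 0, 1, d, e; 0, 0, 1, f; 0, 0, 0, 1] by
    obtain ⟨b, c, d, e, f, h⟩ := this
    exact ⟨b, c, d, e, f, Subtype.ext (Subtype.ext h)⟩
  generalize p.1.1 = A at m e1 e2 h
  have m0 := m 0; have m1 := m 1; have m2 := m 2; have m3 := m 3
  have a1 := congrFun₂ e1 0 1; have a2 := congrFun₂ e1 0 2; have a3 := congrFun₂ e1 0 3
  have b0 := congrFun₂ e2 0 3; have b1 := congrFun₂ e2 1 3; have b2 := congrFun₂ e2 2 3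
  simp [Matrix.mul_apply, Fin.sum_univ_four] at m0 m1 m2 m3 a1 a2 a3 b0 b1 b2
  rw [m0, add_comm, add_right_inj] at a3
  rw [← a3, add_comm, add_right_inj] at b1
  have e : A = !![1, 0, A 0 2, A 0 3; 0, 1, A 1 2, A 1 3; 0, 0, A 2 2, A 2 3; 0, 0, 0, 1] := by
    ext i j; fin_cases i <;> fin_cases j <;> simp [m0, m1, m2, m3, a1, a2, ← a3, b0, b1, b2]
  rw [e] at h
  simp [Matrix.det_succ_column_zero, Fin.sum_univ_succ] at h
  exact ⟨_, _, _, _, _, h ▸ e⟩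

theorem det_blk (A : Matrix (Fin 3) (Fin 3) F3) (a b c : F3) : (!![1, a, b, c; 0, A 0 0, A 0 1, A 0 2;
    0, A 1 0, A 1 1, A 1 2; 0, A 2 0, A 2 1, A 2 2] : Matrix _ _ F3).det = A.det := by
  rw [Matrix.det_succ_column_zero, Fin.sum_univ_four]
  simp only [Matrix.det_fin_three]
  simp

/-- the block embedding `A ↦ 1 ⊕ A` -/
def blk : Matrix.SpecialLinearGroup (Fin 3) F3 →* SL4 :=
  MonoidHom.mk' (fun A => ⟨!![1, 0, 0, 0; 0, A 0 0, A 0 1, A 0 2; 0, A 1 0, A 1 1, A 1 2;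
    0, A 2 0, A 2 1, A 2 2], (det_blk A.1 0 0 0).trans A.2⟩) fun A B => by
    refine Subtype.ext (Eq.trans ?_ (Matrix.SpecialLinearGroup.coe_mul _ _).symm)
    ext i j
    fin_cases i <;> fin_cases j <;> simp [Matrix.mul_apply, Fin.sum_univ_four, Fin.sum_univ_three]

theorem blk_X : ∀ i j u, blk (xA i j u) = X i.succ j.succ u := by decide +kernel

theorem blk_val (A : Matrix.SpecialLinearGroup (Fin 3) F3) : (blk A).1 = !![1, 0, 0, 0;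
    0, A 0 0, A 0 1, A 0 2; 0, A 1 0, A 1 1, A 1 2; 0, A 2 0, A 2 1, A 2 2] := rfl

theorem up_val (a b c d e f : F3) :
    (up a b c d e f).1 = !![1, a, b, c; 0, 1, d, e; 0, 0, 1, f; 0, 0, 0, 1] := rfl

/-- `PP = SL₃(3) · E₁` -/
theorem PP_dec {A : SL4} (hp : A ∈ PP) : ∃ B a b c, A = blk B * up a b c 0 0 0 := by
  have m := mem_PP.1 hp
  have m0 := m 0; have m1 := m 1; have m2 := m 2; have m3 := m 3
  simp at m0 m1 m2 m3
  let B : Matrix (Fin 3) (Fin 3) F3 := A.1.submatrix Fin.succ Fin.succ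
  have e : A.1 = !![1, A 0 1, A 0 2, A 0 3; 0, B 0 0, B 0 1, B 0 2; 0, B 1 0, B 1 1, B 1 2;
      0, B 2 0, B 2 1, B 2 2] := by
    ext i j
    fin_cases i <;> fin_cases j <;> first | rfl | assumption
  obtain ⟨B', hB⟩ : ∃ B' : Matrix.SpecialLinearGroup (Fin 3) F3, B = B'.1 :=
    ⟨⟨B, by rw [← det_blk B, ← e]; exact A.2⟩, rfl⟩
  refine ⟨B', A 0 1, A 0 2, A 0 3, Subtype.ext (e.trans ?_)⟩
  rw [Matrix.SpecialLinearGroup.coe_mul, blk_val, up_val, hB]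
  ext i j
  fin_cases i <;> fin_cases j <;> simp [Matrix.mul_apply, Fin.sum_univ_four]

/-- `PP` is generated by the root elements it contains. -/
theorem PP_le (H : Subgroup SL4) (h : ∀ k l u, k ≠ l → l ≠ 0 → X k l u ∈ H) : PP ≤ H := by
  intro A hp
  have h1 : H.comap blk = ⊤ := sl_eq_top_of_transvections _ fun i j hij u => by
    rw [mem_comap, ← xA_eq, blk_X]
    exact h _ _ _ (by simpa) j.succ_ne_zero
  have h2 : ∀ a b c, up a b c 0 0 0 = X 0 1 a * X 0 2 b * X 0 3 c := by decide +kernel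
  obtain ⟨B, a, b, c, rfl⟩ := PP_dec hp
  rw [h2]
  exact mul_mem (h1.ge (mem_top _)) (mul_mem (mul_mem (h _ _ _ (by decide) (by decide))
    (h _ _ _ (by decide) (by decide))) (h _ _ _ (by decide) (by decide)))

section
variable {G : Type*} [Group G] {φ : PP →* G}

theorem s_inj (h : Function.Injective φ) {a b c d e f a' b' c' d' e' f' : F3}
    (e0 : s φ a b c d e f = s φ a' b' c' d' e' f') :
    a = a' ∧ b = b' ∧ c = c' ∧ d = d' ∧ e = e' ∧ f = f' := uP_inj (h e0)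

theorem JJ_le {K : Subgroup G} (h1 : s φ 0 1 0 0 0 0 ∈ K) (h2 : s φ 0 0 1 0 0 0 ∈ K)
    (h3 : s φ 0 0 0 1 0 0 ∈ K) (h4 : s φ 0 0 0 0 1 0 ∈ K) : JJ φ ≤ K := by
  rintro _ ⟨b, c, d, e, rfl⟩
  have : ∀ b c d e : F3, uP 0 b c d e 0 = uP 0 1 0 0 0 0 ^ b.val * uP 0 0 1 0 0 0 ^ c.val *
    uP 0 0 0 1 0 0 ^ d.val * uP 0 0 0 0 1 0 ^ e.val := by decide +kernel
  simp only [s, this b c d e, map_mul, map_pow]
  exact mul_mem (mul_mem (mul_mem (pow_mem h1 _) (pow_mem h2 _)) (pow_mem h3 _)) (pow_mem h4 _)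

theorem E2_le {K : Subgroup G} (h1 : s φ 0 0 1 0 0 0 ∈ K) (h2 : s φ 0 0 0 0 1 0 ∈ K)
    (h3 : s φ 0 0 0 0 0 1 ∈ K) : E2 φ ≤ K := by
  rintro _ ⟨c, e, f, rfl⟩
  have : ∀ c e f : F3, uP 0 0 c 0 e f = uP 0 0 1 0 0 0 ^ c.val * uP 0 0 0 0 1 0 ^ e.val *
    uP 0 0 0 0 0 1 ^ f.val := by decide +kernel
  simp only [s, this c e f, map_mul, map_pow]
  exact mul_mem (mul_mem (pow_mem h1 _) (pow_mem h2 _)) (pow_mem h3 _)

theorem mem_Nr [Finite G] {K : Subgroup G} {c : G} (h : K ≤ K.comap (MulAut.conj c).toMonoidHom) :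
    c ∈ Nr K := mem_normalizer_fintype h

theorem nrJ [Finite G] {g : PP} (h : ∀ b c d e, ∃ b' c' d' e', g * uP 0 b c d e 0 =
    uP 0 b' c' d' e' 0 * g) : φ g ∈ Nr (JJ φ) := mem_normalizer_fintype (by
  rintro _ ⟨b, c, d, e, rfl⟩
  obtain ⟨b', c', d', e', h⟩ := h b c d e
  exact ⟨b', c', d', e', by rw [s, ← map_mul, h, map_mul, mul_inv_cancel_right, s]⟩)

theorem nrE [Finite G] {g : PP} (h : ∀ c e f, ∃ c' e' f', g * uP 0 0 c 0 e f =
    uP 0 0 c' 0 e' f' * g) : φ g ∈ Nr (E2 φ) := mem_normalizer_fintype (by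
  rintro _ ⟨c, e, f, rfl⟩
  obtain ⟨c', e', f', h⟩ := h c e f
  exact ⟨c', e', f', by rw [s, ← map_mul, h, map_mul, mul_inv_cancel_right, s]⟩)

/-- `C(z, f₀) = J⟨w⟩` -/
theorem cV (hl : HL φ) {g : G} (h1 : g * zz φ = zz φ * g) (h2 : g * f0 φ = f0 φ * g) :
    ∃ b c d e f, g = s φ 0 b c d e f := by
  obtain ⟨p, rfl⟩ := hl.cen (mem_centralizer_singleton_iff.2 h1)
  obtain ⟨b, c, d, e, f, rfl⟩ := cv p (hl.inj (by rw [map_mul, map_mul]; exact h1))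
    (hl.inj (by rw [map_mul, map_mul]; exact h2))
  exact ⟨b, c, d, e, f, rfl⟩

/-- `E₂` is self-centralising -/
theorem cE (hl : HL φ) {g : G} (h1 : g * zz φ = zz φ * g) (h2 : g * f0 φ = f0 φ * g)
    (h3 : g * s φ 0 0 0 0 0 1 = s φ 0 0 0 0 0 1 * g) : g ∈ E2 φ := by
  obtain ⟨b, c, d, e, f, rfl⟩ := cV hl h1 h2
  rw [s_mul, s_mul] at h3
  obtain ⟨-, -, h4, -, h5, -⟩ := s_inj hl.inj h3
  obtain rfl : b = 0 := by linear_combination h4
  obtain rfl : d = 0 := by linear_combination h5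
  exact ⟨c, e, f, rfl⟩

theorem f0_not_range (hl : HL φ) {g : G} (h : g * zz φ * g⁻¹ = f0 φ) : g ∉ φ.range := by
  rintro ⟨p, rfl⟩
  rw [mul_inv_eq_iff_eq_mul, zz, f0, s, s, ← map_mul, ← map_mul] at h
  have e1 : p.1.1 * !![1, 0, 0, 1; 0, 1, 0, 0; 0, 0, 1, 0; 0, 0, 0, 1] =
    !![1, 0, 0, 0; 0, 1, 0, 1; 0, 0, 1, 0; 0, 0, 0, 1] * p.1.1 :=
    congrArg (fun g : PP => g.1.1) (hl.inj h)
  have e := congrFun₂ e1 0 3
  simp [Matrix.mul_apply, Fin.sum_univ_four, mem_PP.1 p.2 0] at e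

end

end H21.L43
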