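/- PN tower (S3399), item PB: the packing bound for the quadruple system. -/
import Cfsg.Agent.H42.PnSpec

set_option autoImplicit false
set_option linter.unusedSectionVars false

namespace H21.PnPB
open Equiv MulAction Pointwise H2.Ln H42.PN

section
variable {α : Type} [Fintype α] [DecidableEq α]

open Classical in
/-- The points `e` outside `x, y, z, w` with `Q {x, y, z, e}`. -/
noncomputable def nb (Q : Finset α → Prop) (x y z w : α) : Finset α :=
  Finset.univ.filter fun e => e ∉ [x, y, z, w] ∧ Q {x, y, z, e}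

theorem mem_nb {Q : Finset α → Prop} {x y z w e : α} :
    e ∈ nb Q x y z w ↔ e ∉ [x, y, z, w] ∧ Q {x, y, z, e} := by simp only [nb, Finset.mem_filter,
      Finset.mem_univ, true_and]

theorem sm4 (g : Perm α) (x y z w : α) :
    g • ({x, y, z, w} : Finset α) = {g x, g y, g z, g w} := by
  simp only [Finset.smul_finset_insert, Finset.smul_finset_singleton, Perm.smul_def]

variable {G K : Subgroup (Perm α)} {a a' b : α} {O₁ O₂ : Finset α} {Q : Finset α → Prop}

theorem card_nb (h : Two G K a a' b O₁ O₂) (q : Quad G a a' b O₁ Q) {x y z w : α}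
    (nd : [x, y, z, w].Nodup) (hq : Q {x, y, z, w}) : (nb Q x y z w).card + 1 = O₁.card := by
  have nd3 : [x, y, z].Nodup := by simp at nd ⊢; tauto
  obtain ⟨g, hg, e1, e2, e3⟩ := h.t3 a (Finset.mem_univ _) a' (Finset.mem_univ _) b
    (Finset.mem_univ _) x (Finset.mem_univ _) y (Finset.mem_univ _) z (Finset.mem_univ _) h.nd nd3
  have key : ∀ e, e ∈ g • O₁ ↔ e ∉ [x, y, z] ∧ Q {x, y, z, e} := by
    intro e
    obtain ⟨c, rfl⟩ := g.surjective e
    have n1 : g c ∉ [x, y, z] ↔ c ∉ [a, a', b] := by
      rw [← e1, ← e2, ← e3]; simp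
    have n2 : Q {x, y, z, g c} ↔ Q {a, a', b, c} := by
      rw [← q.inv g hg {a, a', b, c}, sm4, e1, e2, e3]
    rw [app_mem_sm, n1, n2]
    exact ⟨fun hc => ⟨(h.cov c).1 (Or.inl hc), (q.mem c ((h.cov c).1 (Or.inl hc))).2 hc⟩,
      fun hc => (q.mem c hc.1).1 hc.2⟩
  have hw : w ∉ nb Q x y z w := fun hw => (mem_nb.1 hw).1 (by simp)
  have e : insert w (nb Q x y z w) = g • O₁ := by
    ext e
    rw [Finset.mem_insert, mem_nb, key]
    constructor
    · rintro (rfl | ⟨h1, h2⟩)
      · exact ⟨by simp at nd ⊢; tauto, hq⟩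
      · exact ⟨by simp at h1 ⊢; tauto, h2⟩
    · rintro ⟨h1, h2⟩
      by_cases hew : e = w
      · exact Or.inl hew
      · exact Or.inr ⟨by simp at h1 ⊢; tauto, h2⟩
  rw [← Finset.card_insert_of_notMem hw, e, Finset.card_smul_finset]

theorem tri' (q : Quad G a a' b O₁ Q) {p r x y e : α} (nd : [p, r, x, y, e].Nodup)
    {T A B : Finset α} (hT : Q T) (hA : Q A) (hB : Q B) (eT : T = {p, r, x, y})
    (eA : A = {p, r, x, e}) (eB : B = {p, r, y, e}) : False :=
  q.tri p r x y e nd (eT ▸ hT) (eA ▸ hA) (eB ▸ hB)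

set_option maxHeartbeats 1600000 in
theorem main (h : Two G K a a' b O₁ O₂) (q : Quad G a a' b O₁ Q) :
    3 * O₁.card ≤ O₂.card + 3 := by
  obtain ⟨c, hc, -⟩ := Finset.not_subset.1 h.mv
  have hc' := (h.cov c).1 (Or.inl hc)
  have hT : Q {a, a', b, c} := (q.mem c hc').2 hc
  have nd := h.nd
  have n1 : a ≠ a' ∧ a ≠ b ∧ a' ≠ b ∧ c ≠ a ∧ c ≠ a' ∧ c ≠ b := by simp at nd hc'; tauto
  obtain ⟨m1, m2, m3, m4, m5, m6⟩ := n1
  have c1 := card_nb h q (x := a) (y := a') (z := b) (w := c) (by simp; grind) hT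
  have c2 := card_nb h q (x := a) (y := a') (z := c) (w := b) (by simp; grind)
    (by convert hT using 1; ext; simp; tauto)
  have c3 := card_nb h q (x := a) (y := b) (z := c) (w := a') (by simp; grind)
    (by convert hT using 1; ext; simp; tauto)
  have c4 := card_nb h q (x := a') (y := b) (z := c) (w := a) (by simp; grind)
    (by convert hT using 1; ext; simp; tauto)
  have d12 : Disjoint (nb Q a a' b c) (nb Q a a' c b) := Finset.disjoint_left.2 fun e h1 h2 => by
    rw [mem_nb] at h1 h2
    exact tri' q (p := a) (r := a') (x := b) (y := c) (e := e) (by have := h1.1; simp at this ⊢; grind)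
      hT h1.2 h2.2 rfl rfl rfl
  have d13 : Disjoint (nb Q a a' b c) (nb Q a b c a') := Finset.disjoint_left.2 fun e h1 h2 => by
    rw [mem_nb] at h1 h2
    exact tri' q (p := a) (r := b) (x := a') (y := c) (e := e) (by have := h1.1; simp at this ⊢; grind)
      hT h1.2 h2.2 (by ext; simp; tauto) (by ext; simp; tauto) rfl
  have d14 : Disjoint (nb Q a a' b c) (nb Q a' b c a) := Finset.disjoint_left.2 fun e h1 h2 => by
    rw [mem_nb] at h1 h2
    exact tri' q (p := a') (r := b) (x := a) (y := c) (e := e) (by have := h1.1; simp at this ⊢; grind)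
      hT h1.2 h2.2 (by ext; simp; tauto) (by ext; simp; tauto) rfl
  have d23 : Disjoint (nb Q a a' c b) (nb Q a b c a') := Finset.disjoint_left.2 fun e h1 h2 => by
    rw [mem_nb] at h1 h2
    exact tri' q (p := a) (r := c) (x := a') (y := b) (e := e) (by have := h1.1; simp at this ⊢; grind)
      hT h1.2 h2.2 (by ext; simp; tauto) (by ext; simp; tauto) (by ext; simp; tauto)
  have d24 : Disjoint (nb Q a a' c b) (nb Q a' b c a) := Finset.disjoint_left.2 fun e h1 h2 => by
    rw [mem_nb] at h1 h2
    exact tri' q (p := a') (r := c) (x := a) (y := b) (e := e) (by have := h1.1; simp at this ⊢; grind)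
      hT h1.2 h2.2 (by ext; simp; tauto) (by ext; simp; tauto) (by ext; simp; tauto)
  have d34 : Disjoint (nb Q a b c a') (nb Q a' b c a) := Finset.disjoint_left.2 fun e h1 h2 => by
    rw [mem_nb] at h1 h2
    exact tri' q (p := b) (r := c) (x := a) (y := a') (e := e) (by have := h1.1; simp at this ⊢; grind)
      hT h1.2 h2.2 (by ext; simp; tauto) (by ext; simp; tauto) (by ext; simp; tauto)
  have sub : nb Q a a' b c ∪ nb Q a a' c b ∪ nb Q a b c a' ∪ nb Q a' b c a ⊆ (O₁ ∪ O₂).erase c := by
    intro e he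
    rw [Finset.mem_erase, Finset.mem_union, h.cov]
    simp only [Finset.mem_union, mem_nb] at he
    rcases he with ((he | he) | he) | he <;> have := he.1 <;> simp at this ⊢ <;> tauto
  have hle := Finset.card_le_card sub
  rw [Finset.card_union_of_disjoint (by simp [Finset.disjoint_union_left, d14, d24, d34]),
    Finset.card_union_of_disjoint (by simp [Finset.disjoint_union_left, d13, d23]),
    Finset.card_union_of_disjoint d12, Finset.card_erase_of_mem (Finset.mem_union_left _ hc),
    Finset.card_union_of_disjoint h.dj] at hle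
  omega
end

theorem jobPB : PB := fun _ _ _ _ _ _ _ _ _ _ _ h q => main h q

end H21.PnPB
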