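import Cfsg.Agent.H53.SimXASpec

/-! Tower SIM, slot XA-TH: the semilinear maps `th j`. -/

set_option autoImplicit false

namespace H21.SimTH

open Subgroup Cfsg Matrix H0.Sim H53.XA

theorem rank_unit_mul {n : ℕ} {F : Type} [Field F] (V U m : Mt n F) (hV : IsUnit V)
    (hU : IsUnit U) : (V * m * U).rank = m.rank := by
  rw [Matrix.rank_mul_eq_left_of_isUnit_det _ _ ((Matrix.isUnit_iff_isUnit_det _).1 hU),
    Matrix.rank_mul_eq_right_of_isUnit_det _ _ ((Matrix.isUnit_iff_isUnit_det _).1 hV)]

theorem rank_map {n : ℕ} {F : Type} [Field F] (σ : F ≃+* F) (m : Mt n F) :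
    (m.map σ).rank = m.rank := by
  obtain ⟨V, U, e, hV, hU, h⟩ := Matrix.exists_rank_normal_form m
  have h1 : V.map σ * m.map σ * U.map σ = V * m * U := by
    rw [← Matrix.map_mul, ← Matrix.map_mul, h]
    ext i j
    simp only [Matrix.map_apply, Matrix.submatrix_apply]
    rcases e i with a | a <;> rcases e j with b | b <;> simp [Matrix.one_apply]
  have hV' : IsUnit (V.map σ) := hV.map (σ.mapMatrix (m := Fin n))
  have hU' : IsUnit (U.map σ) := hU.map (σ.mapMatrix (m := Fin n))
  rw [← rank_unit_mul _ _ (m.map σ) hV' hU', h1, rank_unit_mul _ _ _ hV hU]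

theorem map_bij {n : ℕ} {F : Type} [Field F] (σ : F ≃+* F) :
    Function.Bijective (fun m : Mt n F => m.map σ) := (σ.mapMatrix (m := Fin n)).bijective

theorem job : H53.XA.TH := by
  intro n F _ _ u q j hF ok
  obtain ⟨c, σ, a⟩ := j
  have hcc : ((c⁻¹ : GL (Fin n) F) : Mt n F) * (c : Mt n F) = 1 := Units.inv_mul c
  have hcc' : (c : Mt n F) * ((c⁻¹ : GL (Fin n) F) : Mt n F) = 1 := Units.mul_inv c
  have hmid : ∀ x y : Mt n F, (c : Mt n F) * x * ((c⁻¹ : GL (Fin n) F) : Mt n F) *
      ((c : Mt n F) * y * ((c⁻¹ : GL (Fin n) F) : Mt n F)) =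
      (c : Mt n F) * (x * y) * ((c⁻¹ : GL (Fin n) F) : Mt n F) := fun x y => by
    calc _ = (c : Mt n F) * x * (((c⁻¹ : GL (Fin n) F) : Mt n F) * (c : Mt n F)) * y *
          ((c⁻¹ : GL (Fin n) F) : Mt n F) := by simp only [mul_assoc]
      _ = _ := by rw [hcc, mul_one]; simp only [mul_assoc]
  have hinj : Function.Injective (th (⟨c, σ, a⟩ : Jm n F)) := by
    intro x y h
    simp only [th] at h
    have h1 := (Units.mul_right_inj c).1 ((Units.mul_left_inj c⁻¹).1 h)
    cases a
    · simp only [Bool.false_eq_true, if_false] at h1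
      exact (map_bij σ).1 h1
    · simp only [if_true] at h1
      exact (map_bij σ).1 (Matrix.transpose_injective h1)
  refine ⟨Finite.injective_iff_bijective.1 hinj, ?_, ?_, ?_, ?_, ?_, ?_⟩
  · intro x y
    simp only [th]
    rw [Matrix.map_add _ (map_add σ)]
    cases a
    · simp only [Bool.false_eq_true, if_false, mul_add, add_mul]
    · simp only [if_true, Matrix.transpose_add, mul_add, add_mul]
  · intro t m
    have : (t • m).map σ = σ t • m.map σ := by
      ext i k
      simp
    simp only [th]
    rw [this]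
    cases a
    · simp only [Bool.false_eq_true, if_false, Matrix.mul_smul, Matrix.smul_mul]
    · simp only [if_true, Matrix.transpose_smul, Matrix.mul_smul, Matrix.smul_mul]
  · simp only [th]
    rw [Matrix.map_one _ (map_zero σ) (map_one σ), Matrix.transpose_one, ite_self, mul_one, hcc']
  · intro x y
    simp only [th]
    cases a
    · simp only [Bool.false_eq_true, if_false]
      rw [hmid, Matrix.map_mul]
    · simp only [if_true]
      rw [hmid, Matrix.map_mul, Matrix.transpose_mul]
  · rintro rfl m
    have hF' : Fintype.card F = q ^ 2 := by simpa [Fq] using hF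
    have ha : a = false := by
      cases a
      · rfl
      · exact absurd (ok.2 rfl).1 (by simp)
    subst ha
    have h1 : ad q (c : Mt n F) * c = 1 := (mem_gu hF').1 ok.1
    have h2 : ad q (c : Mt n F) = ((c⁻¹ : GL (Fin n) F) : Mt n F) := by
      rw [← mul_one (ad q (c : Mt n F)), ← hcc', ← mul_assoc, h1, one_mul]
    have h3 : ad q ((c⁻¹ : GL (Fin n) F) : Mt n F) = (c : Mt n F) := by
      rw [← h2, ad_ad hF']
    have h4 : ad q (m.map σ) = (ad q m).map σ := by
      ext i k
      simp [ad]
    simp only [th, Bool.false_eq_true, if_false]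
    rw [ad_mul hF', ad_mul hF', h2, h3, h4, mul_assoc]
  · intro m
    simp only [th]
    rw [rank_unit_mul _ _ _ (Units.isUnit c) (Units.isUnit c⁻¹)]
    cases a
    · simp only [Bool.false_eq_true, if_false]
      exact rank_map σ m
    · simp only [if_true]
      rw [Matrix.rank_transpose]
      exact rank_map σ m

end H21.SimTH
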