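import Cfsg.Agent.H42.SimXBSpec

/-! Tower SIM, slot XB-Z: the scalars. -/

set_option autoImplicit false

namespace H21.SimZ

open Subgroup Cfsg Matrix H0.Sim H42.SX

theorem herm_smul {n q : ℕ} {F : Type} [Field F] (c : F) (u v : Fin n → F) :
    hermForm n F q (c • u) (c • v) = c ^ (q + 1) * hermForm n F q u v := by
  simp only [hermForm, Finset.mul_sum, Pi.smul_apply, smul_eq_mul, mul_pow]
  refine Finset.sum_congr rfl fun i _ => ?_
  ring

theorem scalar_mulVec' {n : ℕ} {F : Type} [Field F] (c : F) (u : Fin n → F) :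
    Matrix.scalar (Fin n) c *ᵥ u = c • u := by
  ext i
  simp [Matrix.scalar_apply, Matrix.mulVec_diagonal]

theorem scalar_mem_GU {n q : ℕ} {F : Type} [Field F] (hn : 2 ≤ n) (c : Fˣ) :
    Matrix.GeneralLinearGroup.scalar (Fin n) c ∈ GU n F q ↔ c ^ (q + 1) = 1 := by
  have h0 : ∀ u v : Fin n → F,
      hermForm n F q (Units.coeHom (Matrix (Fin n) (Fin n) F)
        (Matrix.GeneralLinearGroup.scalar (Fin n) c) *ᵥ u)
        (Units.coeHom (Matrix (Fin n) (Fin n) F)
        (Matrix.GeneralLinearGroup.scalar (Fin n) c) *ᵥ v) =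
        (c : F) ^ (q + 1) * hermForm n F q u v := fun u v => by
    rw [Units.coeHom_apply, Matrix.GeneralLinearGroup.coe_scalar, scalar_mulVec', scalar_mulVec',
      herm_smul]
  constructor
  · intro h
    have i0 : Fin n := ⟨0, by omega⟩
    have h1 := h (Pi.single i0 1) (Pi.single i0 1)
    rw [h0] at h1
    have h2 : hermForm n F q (Pi.single i0 1) (Pi.single i0 1) = 1 := by
      simp only [hermForm]
      rw [Finset.sum_eq_single i0]
      · simp
      · intro b _ hb
        simp [hb]
      · simp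
    rw [h2, mul_one] at h1
    exact Units.ext (by simpa using h1)
  · intro h u v
    rw [h0]
    have : (c : F) ^ (q + 1) = 1 := by
      have := congrArg (Units.val) h
      simpa using this
    rw [this, one_mul]

theorem scalar_inj {n : ℕ} {F : Type} [Field F] (hn : 2 ≤ n) :
    Function.Injective (Matrix.GeneralLinearGroup.scalar (Fin n) : Fˣ →* GL (Fin n) F) := by
  intro a b h
  have i0 : Fin n := ⟨0, by omega⟩
  have h1 := congrArg (fun g : GL (Fin n) F => (g : Matrix (Fin n) (Fin n) F) i0 i0) h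
  simp only [Matrix.GeneralLinearGroup.coe_scalar, Matrix.scalar_apply, Matrix.diagonal_apply_eq] at h1
  exact Units.ext h1

theorem Zg_eq {n q : ℕ} {F : Type} [Field F] (u : Bool) (hn : 2 ≤ n) :
    Zg n F u q = (mu F u q).map (Matrix.GeneralLinearGroup.scalar (Fin n)) := by
  ext z
  rw [Zg, Subgroup.mem_inf, Matrix.GeneralLinearGroup.center_eq_range_scalar, Subgroup.mem_map,
    MonoidHom.mem_range]
  cases u
  · simp [Gam, mu]
  · simp only [Gam, mu, if_true, MonoidHom.mem_ker, powMonoidHom_apply]
    constructor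
    · rintro ⟨h, c, rfl⟩
      exact ⟨c, (scalar_mem_GU hn c).1 h, rfl⟩
    · rintro ⟨c, h, rfl⟩
      exact ⟨(scalar_mem_GU hn c).2 h, c, rfl⟩

theorem jobZ : H42.SX.JobZ := by
  intro n F _ _ u q par
  have hn := par.two
  have hc := par.card
  refine ⟨?_, ?_, ?_, ?_⟩
  · rw [Zg_eq u hn]
    exact Subgroup.card_map_of_injective (scalar_inj hn)
  · cases u
    · simp only [Bool.false_eq_true, if_false] at hc ⊢
      simp only [mu, Bool.false_eq_true, if_false]
      rw [Subgroup.card_top, Nat.card_units, Nat.card_eq_fintype_card, hc]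
    · simp only [if_true] at hc ⊢
      simp only [mu, if_true]
      rw [IsCyclic.card_powMonoidHom_ker, Nat.card_units, Nat.card_eq_fintype_card, hc]
      refine Nat.gcd_eq_right ?_
      have : q ^ 2 - 1 = (q + 1) * (q - 1) := by
        have := Nat.sq_sub_sq q 1
        simpa using this
      rw [this]
      exact Dvd.intro _ rfl
  · intro k hk h
    have h1 : Monoid.exponent (mu F u q) ∣ k := Monoid.exponent_dvd_of_forall_pow_eq_one h
    rw [IsCyclic.exponent_eq_card] at h1
    exact Nat.le_of_dvd hk h1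
  · intro z hz
    rw [Zg_eq u hn] at hz
    obtain ⟨c, -, rfl⟩ := hz
    exact ⟨c, rfl⟩

end H21.SimZ
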